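import Groth.Agent.Vancyc.H678.SimpleSec
import Groth.Agent.Lefpen.H21.PicTwist

/-!
# Sections with simple zeros: corollaries of `SimpleSec.main`

* `main_pow`: with `Q = (A^{⊗ M})^{⊗ n}`, `A` inverse to `i^* O(1)`.
* `main_twist`: with `Q = i^* O(-M)`.
* `exists_pow`: for `n > 0` and a divisibility `D > 0`: there is an invertible `B` on `Z` which is a `D`-divisible
  power of the inverse of `i^* O(1)` and a map `G ⊗ B^{⊗ n} ⟶ O_Z` with finitely many zeros, all simple.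
-/

set_option autoImplicit false
universe u
open CategoryTheory CategoryTheory.Limits AlgebraicGeometry TopologicalSpace Opposite

namespace Groth.Agent.Vancyc.H678.SimplePow

open Groth.Agent.Sga67.Sec Groth.Agent.Sga67.LocBasis
open Groth.Agent.Fdesc.LocGen (isInvertible_iff isInvertible_tensorMod isInvertible_tensorPow
  isInvertible_structureModule)
open Groth.Agent.Grpsch.PicGrp
open Groth.Agent.Vancyc.H326.ChiLam (zeroIdeal IsSimpleZero)

variable {Z : Scheme.{u}} {G : Z.Modules}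

theorem rank_of_isInvertible {L : Z.Modules} (hL : PicF.IsInvertible L) :
    FlatMod.IsFinLocFreeOfRank 1 L := by
  rw [GenFam.isFinLocFreeOfRank_iff]
  intro x
  obtain ⟨U, e, hx, he⟩ := (isInvertible_iff L).mp hL x
  exact ⟨U, hx, _, ProjChart.isLocBasis_of_isGen he⟩

variable {k : Type u} [Field k] {N : ℕ} (i : Z ⟶ CohB1.ProjSpace N k) [IsClosedImmersion i]

/-- `Q` given by its class in the Picard group. -/
theorem main_pic [IsAlgClosed k] [IsIntegral Z] {m : ℕ} (hm : topologicalKrullDim Z = m)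
    (hG : FlatMod.IsFinLocFreeOfRank m G) :
    ∃ M₀ : ℕ, ∀ M : ℕ, M₀ ≤ M → ∀ (Q : Z.Modules) (hQ : PicF.IsInvertible Q),
      mk Q hQ = (Lefpen.H21.PicTwist.hyp i)⁻¹ ^ M →
      ∃ (t : CohB1.tensorMod G Q ⟶ Coh.structureModule Z) (F : Finset Z),
        (∀ z ∈ F, IsClosed ({z} : Set Z) ∧ IsSimpleZero t z) ∧ ∀ z ∉ F, zeroIdeal t z = ⊤ := by
  obtain ⟨M₀, h⟩ := SimpleSec.main i hm hG
  refine ⟨M₀, fun M hM Q hQ hQM => h M hM Q (rank_of_isInvertible hQ) ?_⟩
  have hL : PicF.IsInvertible ((Scheme.Modules.pullback i).obj (Twist.twistProjSpace N k 1)) :=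
    Lefpen.H21.PicTwist.isInvertible_pullback_twist i 1
  rw [← mk_eq_one_iff (isInvertible_tensorMod (isInvertible_tensorPow hL M) hQ),
    ← mk_mul_mk (isInvertible_tensorPow hL M) hQ, mk_tensorPow hL M, hQM]
  have : mk _ hL = Lefpen.H21.PicTwist.hyp i := rfl
  rw [this, inv_pow, mul_inv_cancel]

/-- `Q = i^* O(-M)`. -/
theorem main_twist [IsAlgClosed k] [IsIntegral Z] {m : ℕ} (hm : topologicalKrullDim Z = m)
    (hG : FlatMod.IsFinLocFreeOfRank m G) :
    ∃ M₀ : ℕ, ∀ M : ℕ, M₀ ≤ M →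
      ∃ (t : CohB1.tensorMod G ((Scheme.Modules.pullback i).obj (Twist.twistProjSpace N k (-(M : ℤ)))) ⟶
        Coh.structureModule Z) (F : Finset Z),
        (∀ z ∈ F, IsClosed ({z} : Set Z) ∧ IsSimpleZero t z) ∧ ∀ z ∉ F, zeroIdeal t z = ⊤ := by
  obtain ⟨M₀, h⟩ := main_pic i hm hG
  refine ⟨M₀, fun M hM => h M hM _ (Lefpen.H21.PicTwist.isInvertible_pullback_twist i _) ?_⟩
  rw [Lefpen.H21.PicTwist.mk_pullback_twist, zpow_neg, zpow_natCast, inv_pow]

/-- `Q = (A^{⊗ M})^{⊗ n}` with `A` inverse to `i^* O(1)`. -/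
theorem main_pow [IsAlgClosed k] [IsIntegral Z] {m : ℕ} (hm : topologicalKrullDim Z = m)
    (hG : FlatMod.IsFinLocFreeOfRank m G) {A : Z.Modules} (hA : PicF.IsInvertible A)
    (hAL : Nonempty (CohB1.tensorMod A ((Scheme.Modules.pullback i).obj (Twist.twistProjSpace N k 1)) ≅
      Coh.structureModule Z)) :
    ∃ M₀ : ℕ, ∀ M n : ℕ, M₀ ≤ M * n →
      ∃ (t : CohB1.tensorMod G (CohB1.tensorPow (CohB1.tensorPow A M) n) ⟶ Coh.structureModule Z)
        (F : Finset Z),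
        (∀ z ∈ F, IsClosed ({z} : Set Z) ∧ IsSimpleZero t z) ∧ ∀ z ∉ F, zeroIdeal t z = ⊤ := by
  obtain ⟨M₀, h⟩ := main_pic i hm hG
  refine ⟨M₀, fun M n hM => h (M * n) hM _ (isInvertible_tensorPow (isInvertible_tensorPow hA M) n) ?_⟩
  rw [mk_tensorPow (isInvertible_tensorPow hA M) n, mk_tensorPow hA M, ← pow_mul]
  congr 1
  have hL : PicF.IsInvertible ((Scheme.Modules.pullback i).obj (Twist.twistProjSpace N k 1)) :=
    Lefpen.H21.PicTwist.isInvertible_pullback_twist i 1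
  rw [← mk_eq_one_iff (isInvertible_tensorMod hA hL), ← mk_mul_mk hA hL] at hAL
  exact eq_inv_of_mul_eq_one_left hAL

/-- For `n > 0` there are arbitrarily divisible powers `B = A^{⊗ M}` of the inverse `A` of `i^* O(1)` with a map
`G ⊗ B^{⊗ n} ⟶ O_Z` with finitely many zeros, all simple. -/
theorem exists_pow [IsAlgClosed k] [IsIntegral Z] {m : ℕ} (hm : topologicalKrullDim Z = m)
    (hG : FlatMod.IsFinLocFreeOfRank m G) {A : Z.Modules} (hA : PicF.IsInvertible A)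
    (hAL : Nonempty (CohB1.tensorMod A ((Scheme.Modules.pullback i).obj (Twist.twistProjSpace N k 1)) ≅
      Coh.structureModule Z)) (n d : ℕ) (hn : 0 < n) (hd : 0 < d) :
    ∃ M : ℕ, 0 < M ∧ d ∣ M ∧
      ∃ (t : CohB1.tensorMod G (CohB1.tensorPow (CohB1.tensorPow A M) n) ⟶ Coh.structureModule Z)
        (F : Finset Z),
        (∀ z ∈ F, IsClosed ({z} : Set Z) ∧ IsSimpleZero t z) ∧ ∀ z ∉ F, zeroIdeal t z = ⊤ := by
  obtain ⟨M₀, h⟩ := main_pow i hm hG hA hAL
  refine ⟨(M₀ + 1) * d, Nat.mul_pos (Nat.succ_pos _) hd, Dvd.intro_left _ rfl, h _ n ?_⟩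
  calc M₀ ≤ (M₀ + 1) * 1 * 1 := by omega
    _ ≤ (M₀ + 1) * d * n := Nat.mul_le_mul (Nat.mul_le_mul le_rfl hd) hn

end Groth.Agent.Vancyc.H678.SimplePow
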