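import Groth.Agent.Vancyc.H326.ChiLam
import Groth.Agent.Vancyc.H678.ProjChart
import Groth.Agent.Ega2.H287.FinGenFree
import Groth.Agent.PerfA.CohSerre
import Groth.Agent.VarietyA.AmpleField
import Groth.Agent.S2325

/-!
# Sections with simple zeros

`Z` an integral closed subscheme of `P^N_k`, `k` algebraically closed, of dimension `m`, `G` a bundle of rank `m`:
for `M ≥ M₀` there is a map `G(-M) ⟶ O_Z` with finitely many zeros, all of them simple and at regular points.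
-/

set_option autoImplicit false
universe u
open CategoryTheory CategoryTheory.Limits AlgebraicGeometry TopologicalSpace Opposite

namespace Groth.Agent.Vancyc.H678.SimpleSec

open Groth.Agent.Sga67.Sec Groth.Agent.Sga67.LocBasis
open Groth.Agent.CohqB.HomSheaf (homSheaf)
open Groth.Agent.Krr.H463.HomBasis Groth.Agent.Krr.H463.HomTensor
open Groth.Agent.Vancyc.H678.KDim Groth.Agent.Vancyc.H678.SimpleGen Groth.Agent.Vancyc.H678.GenFam
open Groth.Agent.Vancyc.H678.TwistFam Groth.Agent.Vancyc.H678.ProjChart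
open Groth.Agent.Vancyc.H326.ChiLam (zeroIdeal IsSimpleZero)

variable {Z : Scheme.{u}} {G D L Q : Z.Modules}

theorem isFinLocFreeOfRank_homSheaf {m : ℕ} (hG : FlatMod.IsFinLocFreeOfRank m G) :
    FlatMod.IsFinLocFreeOfRank m (homSheaf G (Coh.structureModule Z)) := by
  rw [GenFam.isFinLocFreeOfRank_iff] at hG ⊢
  intro x
  obtain ⟨U, hx, e, he⟩ := hG x
  exact ⟨U, hx, _, isLocBasis_hsec (N := Coh.structureModule Z) he (isLocBasis_one' Z U)⟩

theorem isFinLocFree_of_rank {n : ℕ} {M : Z.Modules} (hM : FlatMod.IsFinLocFreeOfRank n M) :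
    FlatMod.IsFinLocFree M := fun x => by
  obtain ⟨U, hx, e⟩ := hM x
  exact ⟨U, n, hx, e⟩

theorem rank_tensorMod_one {n : ℕ} {M N : Z.Modules} (hM : FlatMod.IsFinLocFreeOfRank n M)
    (hN : FlatMod.IsFinLocFreeOfRank 1 N) : FlatMod.IsFinLocFreeOfRank n (CohB1.tensorMod M N) := by
  rw [GenFam.isFinLocFreeOfRank_iff] at hM hN ⊢
  intro x
  obtain ⟨U, hx, e, he⟩ := hM x
  obtain ⟨V, hxV, f, hf⟩ := hN x
  have h1 := he.restrict (inf_le_left : U ⊓ V ≤ U)
  have h2 := hf.restrict (inf_le_right : U ⊓ V ≤ V)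
  have h3 : IsLocBasis (fun _ : Fin 1 => res N (inf_le_right : U ⊓ V ≤ V) (f 0)) := by
    convert h2 using 2 with i
    rw [Subsingleton.elim i 0]
  exact ⟨U ⊓ V, ⟨hx, hxV⟩, _, isLocBasis_tensor_one h1 h3⟩

theorem rank_structureModule (Z : Scheme.{u}) : FlatMod.IsFinLocFreeOfRank 1 (Coh.structureModule Z) := by
  rw [GenFam.isFinLocFreeOfRank_iff]
  intro x
  exact ⟨⊤, trivial, _, isLocBasis_one' Z ⊤⟩

theorem rank_tensorPow (hL : FlatMod.IsFinLocFreeOfRank 1 L) (n : ℕ) :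
    FlatMod.IsFinLocFreeOfRank 1 (CohB1.tensorPow L n) := by
  induction n with
  | zero => exact rank_structureModule Z
  | succ n ih => exact rank_tensorMod_one ih hL

theorem zeroIdeal_eq_zI (t : G ⟶ Coh.structureModule Z) (z : Z) : zeroIdeal t z = zI t z := rfl

/-- Abstract version: a family generating `Hom(G, D)` and sections of `L` with the chart condition. -/
theorem exists_simple_of_family {k : Type u} [Field k] [IsAlgClosed k] (p : Z ⟶ Spec (CommRingCat.of k))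
    [IsIntegral Z] [LocallyOfFiniteType p] [CompactSpace Z] {m : ℕ} (hm : topologicalKrullDim Z = m)
    {A κ₀ : Type} [Fintype A] [Fintype κ₀] (s : A → (G ⟶ D)) (hs : ∀ z, GenAt m s z) (τ : κ₀ → Sec L ⊤)
    (hτ : ∀ z : Z, ∃ (q₀ : κ₀) (V : Z.Opens), z ∈ V ∧ VChart p τ q₀ V)
    (κ : CohB1.tensorMod (CohB1.tensorMod D L) Q ≅ Coh.structureModule Z)
    (hQ : FlatMod.IsFinLocFreeOfRank 1 Q) :
    ∃ (t : CohB1.tensorMod G Q ⟶ Coh.structureModule Z) (F : Finset Z),
      (∀ z ∈ F, IsClosed ({z} : Set Z) ∧ IsSimpleZero t z) ∧ ∀ z ∉ F, zeroIdeal t z = ⊤ := by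
  obtain ⟨c, F, h1, h2⟩ := exists_simple p (fun l : κ₀ × A => T (s l.2) (τ l.1) κ.hom) hm (fun z => by
    obtain ⟨q₀, V, hzV, hV⟩ := hτ z
    exact chart p s τ κ hQ hzV hV (hs z))
  exact ⟨_, F, fun z hz => ⟨(h1 z hz).1, (h1 z hz).2.1, (h1 z hz).2.2⟩, h2⟩

section projective

variable {k : Type u} [Field k] {N : ℕ} (i : Z ⟶ CohB1.ProjSpace N k) [IsClosedImmersion i]

/-- The chart condition for a closed subscheme of projective space. -/
theorem exists_vchart (z : Z) : ∃ (q₀ : Fin (N + 1)) (V : Z.Opens), z ∈ V ∧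
    VChart (i ≫ CohB1.ProjSpace.toSpec N k) (coordSec i) q₀ V := by
  have hi : IsClosedImmersion (Y := Proj (CohB1.polyGrading N k)) i := ‹IsClosedImmersion i›
  have h1 : i z ∈ ⨆ q : Fin (N + 1), Proj.basicOpen (CohB1.polyGrading N k) (X1 k N q).1 := by
    rw [Ega2.H298.ProjExt.iSup_basicOpen_eq_top (A := k) (CohB1.polyGrading N k) (X1 k N)
      (MvPolynomial.adjoin_range_X)]
    trivial
  obtain ⟨q, hq⟩ := Opens.mem_iSup.1 h1
  exact ⟨q, _, hq, vchart i q⟩

theorem rank_pullback_twist : FlatMod.IsFinLocFreeOfRank 1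
    ((Scheme.Modules.pullback i).obj (Twist.twistProjSpace N k 1)) := by
  rw [GenFam.isFinLocFreeOfRank_iff]
  intro z
  obtain ⟨q, V, hzV, -, hV, -⟩ := exists_vchart i z
  exact ⟨V, hzV, _, hV⟩

theorem main [IsAlgClosed k] [IsIntegral Z] {m : ℕ} (hm : topologicalKrullDim Z = m)
    (hG : FlatMod.IsFinLocFreeOfRank m G) :
    ∃ M₀ : ℕ, ∀ M : ℕ, M₀ ≤ M → ∀ Q : Z.Modules, FlatMod.IsFinLocFreeOfRank 1 Q →
      Nonempty (CohB1.tensorMod (CohB1.tensorPow
        ((Scheme.Modules.pullback i).obj (Twist.twistProjSpace N k 1)) M) Q ≅ Coh.structureModule Z) →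
      ∃ (t : CohB1.tensorMod G Q ⟶ Coh.structureModule Z) (F : Finset Z),
        (∀ z ∈ F, IsClosed ({z} : Set Z) ∧ IsSimpleZero t z) ∧ ∀ z ∉ F, zeroIdeal t z = ⊤ := by
  let L := (Scheme.Modules.pullback i).obj (Twist.twistProjSpace N k 1)
  have hL : FlatMod.IsFinLocFreeOfRank 1 L := rank_pullback_twist i
  let p := i ≫ CohB1.ProjSpace.toSpec N k
  have hcomp : CompactSpace Z := QuasiCompact.compactSpace_of_compactSpace p
  have hsep : Z.IsSeparated := by
    constructor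
    have h6 : IsSeparated (p ≫ terminal.from _) := inferInstance
    rwa [Subsingleton.elim (terminal.from Z) (p ≫ terminal.from _)]
  have hamp : CohB1.IsAmple L := Flat2H.FamOpen.isAmple_pullback_of_isAffineHom i
    (VarietyA.AmpleField.isAmple_twistProjSpace N k)
  have hH : FlatMod.IsFinLocFreeOfRank m (homSheaf G (Coh.structureModule Z)) :=
    isFinLocFreeOfRank_homSheaf hG
  obtain ⟨n₀, hn₀⟩ := S2325.result Z L hamp (homSheaf G (Coh.structureModule Z))
    (PerfA.CohSerre.isCoh_of_isFinLocFree (isFinLocFree_of_rank hH))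
  refine ⟨n₀ + 1, fun M hM Q hQ hκ => ?_⟩
  obtain ⟨n, rfl⟩ : ∃ n, M = n + 1 := ⟨M - 1, by omega⟩
  obtain ⟨κ⟩ := hκ
  have hD : FlatMod.IsFinLocFreeOfRank 1 (CohB1.tensorPow L n) := rank_tensorPow hL n
  obtain ⟨K, P, hP⟩ := Ega2.H287.FinGenFree.exists_epi_freeMod
    (PerfA.CohSerre.isCoh_of_isFinLocFree (isFinLocFree_of_rank (rank_tensorMod_one hH hD)))
    (hn₀ n (by omega))
  obtain ⟨e⟩ := nonempty_iso (isFinLocFree_of_rank hG) hD
  obtain ⟨s, hs⟩ := exists_genFam hG hD K (P ≫ e.hom)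
  exact exists_simple_of_family p hm s hs (coordSec i) (exists_vchart i) κ hQ

end projective

end Groth.Agent.Vancyc.H678.SimpleSec
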